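import Cfsg.Agent.OddOrderCharacters.Clifford
import Cfsg.Agent.Characters.Linear
import Cfsg.Agent.Characters.DegreeBounds

/-!
# S4891, own characteristic (R12): monotonicity of multiplicities in induced linear characters (helper985, for helper287)
-/

set_option autoImplicit false

open scoped ComplexConjugate
open Cfsg

namespace Cfsg.Agent.H985.OC

open Cfsg.Agent.OddOrderCharacters.Clifford Cfsg.Agent.Characters Cfsg.Agent.Characters.Core

universe u

theorem ind_le {G : Type u} [Group G] [Fintype G] {H H' : Subgroup G} (hle : H ≤ H') (ξ : H' →* ℂˣ) {χ : G → ℂ}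
    (hχ : IsIrrCharacter G χ) :
    ∃ m : ℕ, classInner (indFun H fun t => (ξ ⟨t, hle t.2⟩ : ℂ)) χ = classInner (indFun H' fun t => (ξ t : ℂ)) χ + m := by
  classical
  let _ : Fintype H := Fintype.ofFinite H
  let _ : Fintype H' := Fintype.ofFinite H'
  have hcf : IsClassFunction G χ := isIrr_isClassFunction hχ
  have hfin : Finite (IrrCharacter H') := finite_irr
  let _ := Fintype.ofFinite (IrrCharacter H')
  obtain ⟨m, hm⟩ := exists_nat_comb (isCharacter_comp H'.subtype (isIrr_isCharacter hχ))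
  let ξ' : IrrCharacter H' := ⟨fun t => (ξ t : ℂ), Characters.Linear.isIrrCharacter_hom ξ⟩
  let f : H →* H' := Subgroup.inclusion hle
  rw [OddOrderCharacters.Clifford.classInner_indFun H _ χ hcf,
    OddOrderCharacters.Clifford.classInner_indFun H' _ χ hcf]
  have hnat : ∀ ψ : IrrCharacter H', ∃ n : ℕ, classInner ((ξ' : H' → ℂ) ∘ f) ((ψ : H' → ℂ) ∘ f) = n := fun ψ =>
    classInner_isNat (isCharacter_comp f (isIrr_isCharacter ξ'.2)) (isCharacter_comp f (isIrr_isCharacter ψ.2))
  choose n hn using hnat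
  have e1 : classInner (fun t : H => (ξ ⟨t, hle t.2⟩ : ℂ)) (fun t : H => χ t) = ∑ ψ : IrrCharacter H', (m ψ : ℂ) * n ψ := by
    have h1 : (fun t : H => χ t) = ∑ ψ : IrrCharacter H', m ψ • ((ψ : H' → ℂ) ∘ f) := by
      funext t
      have h2 := congrFun hm (f t)
      simp only [Function.comp_apply, Finset.sum_apply, Pi.smul_apply] at h2 ⊢
      exact h2
    rw [h1, classInner_sum_right]
    refine Finset.sum_congr rfl fun ψ _ => ?_
    rw [← Nat.cast_smul_eq_nsmul ℂ, classInner_smul_right, ← hn ψ, Complex.conj_natCast]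
    rfl
  have e2 : classInner (fun t : H' => (ξ t : ℂ)) (fun t : H' => χ t) = m ξ' := by
    have h1 : (fun t : H' => χ t) = ∑ ψ : IrrCharacter H', m ψ • (ψ : H' → ℂ) := hm
    rw [h1, classInner_sum_right, Finset.sum_eq_single ξ']
    · rw [← Nat.cast_smul_eq_nsmul ℂ, classInner_smul_right, Complex.conj_natCast,
        show classInner (fun t : H' => (ξ t : ℂ)) (ξ' : H' → ℂ) = 1 from classInner_irr_self ξ'.2, mul_one]
    · intro ψ _ hψ
      rw [← Nat.cast_smul_eq_nsmul ℂ, classInner_smul_right,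
        show classInner (fun t : H' => (ξ t : ℂ)) (ψ : H' → ℂ) = 0 from
          classInner_irr_ne ξ'.2 ψ.2 fun h => hψ (Subtype.ext h.symm), mul_zero]
    · intro h
      exact absurd (Finset.mem_univ _) h
  have e3 : (n ξ' : ℂ) = 1 := by
    rw [← hn ξ']
    exact classInner_irr_self (Characters.Linear.isIrrCharacter_hom (ξ.comp f))
  refine ⟨∑ ψ ∈ Finset.univ.erase ξ', m ψ * n ψ, ?_⟩
  rw [e1, e2, ← Finset.add_sum_erase _ _ (Finset.mem_univ ξ'), e3, mul_one, Nat.cast_sum]
  congr 1
  exact Finset.sum_congr rfl fun ψ _ => by rw [Nat.cast_mul]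

end Cfsg.Agent.H985.OC
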