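import Cfsg.Agent.H993.OC.Row
import Cfsg.Agent.H576.Ext.SemiL
import Cfsg.Agent.H464.ExtSemi
import Cfsg.Agent.H328.Gow.CusRat

/-!
# S4891, own characteristic, classical groups, norm two: the data (helper985)

* `CDat p K k c` : `c` is a cuspidal irreducible character of `GL_k(K)`, trivial on the scalars, `p`-rational, of degree
  prime to `p`, fixed by some `τ ^ m`, `p ∤ m`, for every automorphism `τ` of `K`;
* `CSelf K c` : additional properties of a self-dual `c` for `k = 2` (rows `PSp`, `PΩ`);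
* `Cov F N k` : `F.iso = N C` for the pointwise stabilisers `C` of all opposite pairs of totally singular `k`-subspaces;
* `HasSieg F N` : `N` contains the Siegel elements.
-/

set_option autoImplicit false

open scoped ComplexConjugate
open Cfsg

namespace Cfsg.Agent.H985.OC

open Cfsg.Agent.H477.HC Cfsg.Agent.H53.HC Cfsg.Agent.Characters Cfsg.Agent.H576.Ext Module
open Cfsg.Agent.H145.BR (PRat)

universe u v w

/-- the cuspidal datum -/
structure CDat (p : ℕ) (K : Type u) [Field K] (k : ℕ) (c : GL (Fin k) K → ℂ) : Prop where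
  irr : IsIrrCharacter _ c
  cusp : IsCusp c
  scal : ∀ z : Kˣ, c (Matrix.GeneralLinearGroup.scalar (Fin k) z) = c 1
  rat : PRat p c
  fix : ∀ τ : K ≃+* K, ∃ m : ℕ, ¬ p ∣ m ∧ fmap ((τ ^ m : K ≃+* K) : K →+* K) c = c
  deg : ∃ d : ℕ, c 1 = d ∧ ¬ p ∣ d

/-- self-dual data of `GL_2(K)` -/
structure CSelf (K : Type u) [Field K] (c : GL (Fin 2) K → ℂ) : Prop where
  dual : c ∘ invT 2 = c
  one : c 1 = (Nat.card K : ℂ) - 1
  /-- `c` vanishes on the split regular semisimple elements -/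
  tor : ∀ A : GL (Fin 2) K, (A : Matrix (Fin 2) (Fin 2) K) 0 1 = 0 → (A : Matrix (Fin 2) (Fin 2) K) 1 0 = 0 →
    (A : Matrix (Fin 2) (Fin 2) K) 0 0 ≠ (A : Matrix (Fin 2) (Fin 2) K) 1 1 → c A = 0
  /-- `[c, 1] = 1` on the orthogonal group of an anisotropic form (the norm form of the quadratic extension) -/
  ell : ∃ Q : QuadraticForm K (Fin 2 → K), (∀ v, Q v = 0 → v = 0) ∧ ∃ D : Subgroup (GL (Fin 2) K),
    (∀ A : GL (Fin 2) K, A ∈ D ↔ ∀ v, Q ((A : Matrix (Fin 2) (Fin 2) K).mulVec v) = Q v) ∧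
    ∀ [Fintype D], ∑ A : D, c A = (Nat.card D : ℂ)

variable {K : Type u} [Field K] {V : Type v} [AddCommGroup V] [Module K V]

/-- every isometry is in `N` up to an isometry which is trivial on `W` and `W'` -/
def Cov (F : CForm K V) (N : Subgroup F.iso) (k : ℕ) : Prop :=
  ∀ W ∈ F.Om k, ∀ W' ∈ F.Om k, W ⊓ F.perp W' = ⊥ → ∀ g : F.iso, ∃ h : F.iso, (∀ w ∈ W, (h : V ≃ₗ[K] V) w = w) ∧
    (∀ w ∈ W', (h : V ≃ₗ[K] V) w = w) ∧ g * h ∈ N

/-- the Siegel elements `v ↦ v + B(v,b) x - ε⁻¹ B(v,x) b + κ B(v,x) x`, `x` singular, `b ∈ xᗮ` -/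
def HasSieg (F : CForm K V) (N : Subgroup F.iso) : Prop :=
  ∀ x b : V, F.Sing x → F.B x b = 0 → ∃ g ∈ N, ∃ κ : K, ∀ v, (g : V ≃ₗ[K] V) v =
    v + F.B v b • x - (F.ε⁻¹ * F.B v x) • b + (κ * F.B v x) • x

theorem cov_top (F : CForm K V) (k : ℕ) : Cov F ⊤ k := fun _ _ _ _ _ _ =>
  ⟨1, fun _ _ => rfl, fun _ _ => rfl, Subgroup.mem_top _⟩

end Cfsg.Agent.H985.OC
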