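import Cfsg.Agent.H985.OC.Defs
import Cfsg.Agent.H328.Gow.Rat

/-!
# S4891, own characteristic, classical groups: the norm of `F.hc c 1` on a subgroup (helper985)

* `card_mul_sum` : `|N| ∑_G φ = |G| ∑_N φ` if `φ` is right invariant under elements `h`, `G = N {h}`;
* `sum_flag_zero` : `∑_N flagTerm c n W = 0` if this holds on some `L ≤ N_W`;
* `inner_N` : the norm of `F.hc c 1` on `N` equals the one on `F.iso`, if `Cov F N k` and `HasRoots F N`;
* `inner_N_two` : it is two if `c` is self-dual;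
* `inner_N_one` : `[F.hc c 1, 1]_N = 0`.
-/

set_option autoImplicit false
set_option linter.style.haveILetI false

open scoped ComplexConjugate
open Cfsg

namespace Cfsg.Agent.H985.OC

open Cfsg.Agent.H477.HC Cfsg.Agent.H53.HC Cfsg.Agent.Characters Cfsg.Agent.H576.Ext Module
  Cfsg.Agent.OddOrderCharacters.Clifford MulAction
open Cfsg.Agent.H328.Gow (hcf hcf_apply locM locM_eq_zero inner_hcf sum_comp_inner flagTerm_not)

universe u v w

theorem card_mul_sum {G : Type*} [Group G] [Fintype G] (N : Subgroup G) [Fintype N] (φ : G → ℂ)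
    (h : ∀ g : G, ∃ h : G, (∀ x, φ (x * h) = φ x) ∧ g * h ∈ N) :
    (Nat.card N : ℂ) * ∑ g : G, φ g = (Nat.card G : ℂ) * ∑ n : N, φ n := by
  have h1 : ∀ g : G, ∑ n : N, φ ((n : G) * g) = ∑ n : N, φ n := by
    intro g
    obtain ⟨k, hk, hkN⟩ := h g
    have e1 : ∀ n : N, φ ((n : G) * g) = φ ((n * ⟨g * k, hkN⟩ : N) : G) := by
      intro n
      rw [Subgroup.coe_mul, ← mul_assoc, hk]
    rw [Finset.sum_congr rfl fun n _ => e1 n]
    exact Equiv.sum_comp (Equiv.mulRight (⟨g * k, hkN⟩ : N)) (fun n : N => φ n)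
  have h2 : ∑ g : G, ∑ n : N, φ ((n : G) * g) = (Nat.card N : ℂ) * ∑ g : G, φ g := by
    have e1 : ∀ n : N, ∑ g : G, φ ((n : G) * g) = ∑ g : G, φ g := fun n => Equiv.sum_comp (Equiv.mulLeft (n : G)) φ
    rw [Finset.sum_comm, Finset.sum_congr rfl fun n _ => e1 n,
      Finset.sum_const, Finset.card_univ, ← Nat.card_eq_fintype_card, nsmul_eq_mul]
  rw [← h2, Finset.sum_congr rfl fun g _ => h1 g, Finset.sum_const, Finset.card_univ, ← Nat.card_eq_fintype_card,
    nsmul_eq_mul]

variable {K : Type u} [Field K] {V : Type v} [AddCommGroup V] [Module K V] (F : CForm K V)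

theorem flagTerm_mul_right {k : ℕ} (c : GL (Fin k) K → ℂ) {h : F.iso} {W : Submodule K V}
    (hW : ∀ w ∈ W, (h : V ≃ₗ[K] V) w = w) (g : F.iso) :
    flagTerm F.iso.subtype c (g * h) W = flagTerm F.iso.subtype c g W := by
  have h1 : W.map (F.iso.subtype (g * h) : V →ₗ[K] V) = W.map (F.iso.subtype g : V →ₗ[K] V) := by
    ext v
    constructor
    · rintro ⟨w, hw, rfl⟩
      refine ⟨w, hw, ?_⟩
      change (g : V ≃ₗ[K] V) w = (g : V ≃ₗ[K] V) ((h : V ≃ₗ[K] V) w)
      rw [hW w hw]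
    · rintro ⟨w, hw, rfl⟩
      refine ⟨w, hw, ?_⟩
      change (g : V ≃ₗ[K] V) ((h : V ≃ₗ[K] V) w) = (g : V ≃ₗ[K] V) w
      rw [hW w hw]
  by_cases h2 : W.map (F.iso.subtype g : V →ₗ[K] V) = W
  · rw [flagTerm_of F.iso.subtype c (h1.trans h2), flagTerm_of F.iso.subtype c h2]
    congr 1
    ext w
    change (g : V ≃ₗ[K] V) ((h : V ≃ₗ[K] V) w) = (g : V ≃ₗ[K] V) w
    rw [hW w w.2]
  · rw [flagTerm_not F c h2, flagTerm_not F c (fun h3 => h2 (h1.symm.trans h3))]

variable [FiniteDimensional K V] [Finite V]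

omit [Finite V] in
/-- the sum of the local terms of `c` at `W` over `N` vanishes if it vanishes on some subgroup of `N_W` -/
theorem sum_flag_zero {N : Subgroup F.iso} [Fintype N] {k : ℕ} {c : GL (Fin k) K → ℂ} (hc : IsCharacter _ c)
    {W : Submodule K V} (hW : finrank K W = k) {L : Subgroup F.iso} (hL : L ≤ N) (hL1 : L ≤ stabW F.iso.subtype W)
    (h0 : ∀ [Fintype L], ∑ l : L, flagTerm F.iso.subtype c (l : F.iso) W = 0) :
    ∑ n : N, flagTerm F.iso.subtype c (n : F.iso) W = 0 := by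
  classical
  have hcf := Core.isCharacter_isClassFunction hc
  let b : Basis (Fin k) K W := finBasisOfFinrankEq K W hW
  let P : Subgroup N := (stabW F.iso.subtype W).subgroupOf N
  let _ : Fintype P := Fintype.ofFinite P
  let _ : Fintype (L.subgroupOf N) := Fintype.ofFinite _
  let _ : Fintype L := Fintype.ofEquiv _ (Subgroup.subgroupOfEquivOfLe hL).toEquiv
  let f : P →* GL (Fin k) K := (glE b).toMonoidHom.comp ((resHom F.iso.subtype W).comp
    { toFun := fun n => ⟨((n : N) : F.iso), n.2⟩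
      map_one' := rfl
      map_mul' := fun _ _ => rfl })
  have hf : ∀ d : P, flagTerm F.iso.subtype c ((d : N) : F.iso) W = c (f d) := by
    intro d
    have hd : ((d : N) : F.iso) ∈ stabW F.iso.subtype W := d.2
    rw [flagTerm_of F.iso.subtype c hd, cl_eq hcf b]
    rfl
  let j : L.subgroupOf N →* P :=
    { toFun := fun l => ⟨l, hL1 l.2⟩
      map_one' := rfl
      map_mul' := fun _ _ => rfl }
  have h1 : classInner (c ∘ f) (1 : P → ℂ) = 0 := by
    refine classInner_eq_zero_of_comp j (Core.isCharacter_comp f hc) Core.isCharacter_one ?_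
    rw [classInner_apply]
    rw [show ∑ l : L.subgroupOf N, ((c ∘ f) ∘ j) l * conj (((1 : P → ℂ) ∘ j) l) = 0 from ?_, mul_zero]
    rw [← h0]
    refine Fintype.sum_equiv (Subgroup.subgroupOfEquivOfLe hL).toEquiv _ _ fun l => ?_
    change c (f (j l)) * conj (1 : ℂ) = _
    rw [map_one, mul_one, ← hf]
    rfl
  rw [sum_eq_sum_subgroup P]
  · rw [classInner_apply] at h1
    have h2 := (mul_eq_zero.1 h1).resolve_left (inv_ne_zero card_ne_zero')
    rw [← h2]
    refine Finset.sum_congr rfl fun d _ => ?_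
    rw [hf]
    change _ = c (f d) * conj (1 : ℂ)
    rw [map_one, mul_one]
  · intro g hg
    exact flagTerm_not F c hg

variable [Finite K]

/-- the local terms -/
theorem locN_zero {N : Subgroup F.iso} [Fintype N] {k : ℕ} {c c' : GL (Fin k) K → ℂ} (hc : IsCharacter _ c)
    (hc' : IsCharacter _ c') {W W' : Submodule K V} (hW : W ∈ F.Om k) (hW' : W' ∈ F.Om k)
    (h : H576.Ext.Van2 F N c c' W W') :
    ∑ n : N, flagTerm F.iso.subtype c (n : F.iso) W * conj (flagTerm F.iso.subtype c' (n : F.iso) W') = 0 := by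
  classical
  letI := omAct F N k
  have h1 := inner_term_zero (lt F N c) (lt F N c') ⟨W, hW⟩ ⟨W', hW'⟩ (isCharacter_stabFun F N hc _)
    (isCharacter_stabFun F N hc' _) (van2_stab F N ⟨W, hW⟩ ⟨W', hW'⟩ h)
  rw [← h1]
  refine Finset.sum_congr rfl fun n _ => ?_
  have key : ∀ (c : GL (Fin k) K → ℂ) (W : F.Om k), flagTerm F.iso.subtype c (n : F.iso) W.1 =
      if n • W = W then lt F N c n W else 0 := by
    intro c W
    split_ifs with h
    · rfl
    · exact flagTerm_not F c fun h' => h (Subtype.ext h')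
  rw [key c ⟨W, hW⟩, key c' ⟨W', hW'⟩]
  congr!

/-- **the norm on `N`** -/
theorem inner_N {N : Subgroup F.iso} [Fintype N] [Fintype F.iso] (hN : HasRoots F N) {k : ℕ} (hk : 2 ≤ k)
    (hcov : Cov F N k) [Fintype (F.Om k)] {c : GL (Fin k) K → ℂ} (hc : IsIrrCharacter _ c) (hcusp : IsCusp c) :
    classInner (fun n : N => F.hc c (fun _ _ => 1) n) (fun n : N => F.hc c (fun _ _ => 1) n) =
      classInner (hcf F c) (hcf F c) := by
  classical
  have hcc := Core.isIrr_isCharacter hc
  have hcf' := Core.isIrr_isClassFunction hc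
  -- the local comparison
  have key : ∀ W W' : F.Om k, (Nat.card N : ℂ) * ∑ g : F.iso, flagTerm F.iso.subtype c g W.1 *
      conj (flagTerm F.iso.subtype c g W'.1) = (Nat.card F.iso : ℂ) * ∑ n : N, flagTerm F.iso.subtype c (n : F.iso) W.1 *
      conj (flagTerm F.iso.subtype c (n : F.iso) W'.1) := by
    rintro ⟨W, hW⟩ ⟨W', hW'⟩
    have hinv : ∀ h : F.iso, (∀ w ∈ W, (h : V ≃ₗ[K] V) w = w) → (∀ w ∈ W', (h : V ≃ₗ[K] V) w = w) → ∀ x : F.iso,
        flagTerm F.iso.subtype c (x * h) W * conj (flagTerm F.iso.subtype c (x * h) W') =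
          flagTerm F.iso.subtype c x W * conj (flagTerm F.iso.subtype c x W') := by
      intro h h1 h2 x
      rw [flagTerm_mul_right F c h1, flagTerm_mul_right F c h2]
    by_cases hne : W' = W
    · subst hne
      obtain ⟨W₁, hW₁, h0⟩ := F.exists_opp hW'
      refine card_mul_sum N (fun g => flagTerm F.iso.subtype c g W' * conj (flagTerm F.iso.subtype c g W')) fun g => ?_
      obtain ⟨h, h1, -, h3⟩ := hcov W' hW' W₁ hW₁ h0 g
      exact ⟨h, hinv h h1 h1, h3⟩
    by_cases h0 : W ⊓ F.perp W' = ⊥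
    · refine card_mul_sum N (fun g => flagTerm F.iso.subtype c g W * conj (flagTerm F.iso.subtype c g W')) fun g => ?_
      obtain ⟨h, h1, h2, h3⟩ := hcov W hW W' hW' h0 g
      exact ⟨h, hinv h h1 h2, h3⟩
    have hvan : H576.Ext.Van2 F N c c W W' := by
      by_cases h1 : W ⊓ F.perp W' = W
      · have h1' : W ≤ F.perp W' := inf_eq_left.1 h1
        by_cases h3 : W ⊓ W' = ⊥
        · exact van2_case3 hk hN hcf' hcf' hcusp hW hW' h1' h3
        · exact van2_case2 hN hcf' hcf' hcusp hW hW' h1' h3 hne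
      · exact van2_case1 hN hcf' hcf' hcusp hW hW' h0 h1
    have hvan' : H328.Gow.Van2 F ⊤ c c W W' := by
      obtain ⟨L, -, h2, h3, h4⟩ := hvan
      exact ⟨L, le_top, h2, h3, h4⟩
    have e1 : ∑ g : F.iso, flagTerm F.iso.subtype c g W * conj (flagTerm F.iso.subtype c g W') = 0 :=
      locM_eq_zero hc hc hW.2 hW'.2 hvan'
    rw [e1, mul_zero, locN_zero F hcc hcc hW hW' hvan, mul_zero]
  -- the sums
  have e1 : (Nat.card F.iso : ℂ) * classInner (hcf F c) (hcf F c) = ∑ W : F.Om k, ∑ W' : F.Om k,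
      ∑ g : F.iso, flagTerm F.iso.subtype c g W.1 * conj (flagTerm F.iso.subtype c g W'.1) := by
    rw [classInner_apply, mul_inv_cancel_left₀ card_ne_zero']
    have h1 : ∀ g : F.iso, hcf F c g * conj (hcf F c g) = ∑ W : F.Om k, ∑ W' : F.Om k,
        flagTerm F.iso.subtype c g W.1 * conj (flagTerm F.iso.subtype c g W'.1) := by
      intro g
      rw [hcf_apply, map_sum, Finset.sum_mul_sum]
    rw [Finset.sum_congr rfl fun g _ => h1 g, Finset.sum_comm]
    exact Finset.sum_congr rfl fun W _ => Finset.sum_comm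
  have e2 : (Nat.card N : ℂ) * classInner (fun n : N => F.hc c (fun _ _ => 1) n)
      (fun n : N => F.hc c (fun _ _ => 1) n) = ∑ W : F.Om k, ∑ W' : F.Om k,
      ∑ n : N, flagTerm F.iso.subtype c (n : F.iso) W.1 * conj (flagTerm F.iso.subtype c (n : F.iso) W'.1) := by
    rw [classInner_apply, mul_inv_cancel_left₀ card_ne_zero']
    have h1 : ∀ n : N, F.hc c (fun _ _ => 1) (n : F.iso) * conj (F.hc c (fun _ _ => 1) (n : F.iso)) =
        ∑ W : F.Om k, ∑ W' : F.Om k,
        flagTerm F.iso.subtype c (n : F.iso) W.1 * conj (flagTerm F.iso.subtype c (n : F.iso) W'.1) := by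
      intro n
      have h2 : F.hc c (fun _ _ => 1) (n : F.iso) = ∑ W : F.Om k, flagTerm F.iso.subtype c (n : F.iso) W.1 :=
        hcf_apply F c (n : F.iso)
      rw [h2, map_sum, Finset.sum_mul_sum]
    rw [Finset.sum_congr rfl fun n _ => h1 n, Finset.sum_comm]
    exact Finset.sum_congr rfl fun W _ => Finset.sum_comm
  have e3 : (Nat.card N : ℂ) * ((Nat.card F.iso : ℂ) * classInner (hcf F c) (hcf F c)) =
      (Nat.card F.iso : ℂ) * ((Nat.card N : ℂ) * classInner (fun n : N => F.hc c (fun _ _ => 1) n)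
        (fun n : N => F.hc c (fun _ _ => 1) n)) := by
    rw [e1, e2]
    simp only [Finset.mul_sum]
    refine Finset.sum_congr rfl fun W _ => Finset.sum_congr rfl fun W' _ => ?_
    have := key W W'
    rw [Finset.mul_sum, Finset.mul_sum] at this
    exact this
  rw [mul_left_comm] at e3
  exact (mul_left_cancel₀ card_ne_zero' (mul_left_cancel₀ card_ne_zero' e3)).symm

/-- **norm two** -/
theorem inner_N_two {N : Subgroup F.iso} [Fintype N] (hN : HasRoots F N) {k : ℕ} (hk : 2 ≤ k)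
    (hcov : Cov F N k) [Fintype (F.Om k)] {c : GL (Fin k) K → ℂ} (hc : IsIrrCharacter _ c) (hcusp : IsCusp c)
    (hc1 : c ≠ 1) (hdual : c ∘ F.iota k = c) {W₀ : Submodule K V} (hW₀ : W₀ ∈ F.Om k) :
    classInner (fun n : N => F.hc c (fun _ _ => 1) n) (fun n : N => F.hc c (fun _ _ => 1) n) = 2 := by
  classical
  have hG : Finite (V ≃ₗ[K] V) := Finite.of_injective (fun e : V ≃ₗ[K] V => (e : V → V)) DFunLike.coe_injective
  let _ : Fintype F.iso := Fintype.ofFinite _
  let _ : Fintype (GL (Fin k) K) := Fintype.ofFinite _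
  rw [inner_N F hN hk hcov hc hcusp, inner_hcf F (by omega) hc hc1 hcusp hc hW₀, hdual, Core.classInner_irr_self hc]
  norm_num

omit [Finite K] in
/-- the trivial character is not a constituent -/
theorem inner_N_one {N : Subgroup F.iso} [Fintype N] (hN : HasRoots F N) {k : ℕ} (hk : 2 ≤ k)
    [Fintype (F.Om k)] {c : GL (Fin k) K → ℂ} (hc : IsIrrCharacter _ c) (hcusp : IsCusp c) :
    classInner (fun n : N => F.hc c (fun _ _ => 1) n) 1 = 0 := by
  classical
  have hcl := Core.isIrr_isClassFunction hc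
  rw [classInner_apply]
  have h1 : ∀ n : N, F.hc c (fun _ _ => 1) (n : F.iso) * conj ((1 : N → ℂ) n) =
      ∑ W : F.Om k, flagTerm F.iso.subtype c (n : F.iso) W.1 := by
    intro n
    rw [Pi.one_apply, map_one, mul_one]
    exact hcf_apply F c (n : F.iso)
  rw [Finset.sum_congr rfl fun n _ => h1 n, Finset.sum_comm, Finset.sum_eq_zero, mul_zero]
  rintro ⟨W, hW⟩ -
  -- the local sum
  obtain ⟨W₁, hW₁, hopp⟩ := F.exists_opp hW
  obtain ⟨x, hx, hx0⟩ : ∃ x ∈ W, x ≠ 0 := by
    by_contra h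
    push Not at h
    have : W = ⊥ := (Submodule.eq_bot_iff _).2 h
    have h2 := hW.2
    rw [this, finrank_bot] at h2
    omega
  have hvan : H328.Gow.Van2 F N c (fun _ : GL (Fin 0) K => (1 : ℂ)) W ⊥ := by
    refine H328.Gow.van2_of_root hcl (fun _ _ => rfl) hcusp hW.2 (finrank_bot K V) (K ∙ x)
      ((Submodule.span_singleton_le_iff_mem _ _).2 hx) (fun h => hx0 (Submodule.span_singleton_eq_bot.1 h))
      (fun h => ?_) fun y hy f hf => ?_
    · have h2 := hW.2
      rw [← h, finrank_span_singleton hx0] at h2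
      omega
    · have hyW : y ∈ W := ((Submodule.span_singleton_le_iff_mem _ _).2 hx) hy
      by_cases hf0 : ∀ w, f w = 0
      · refine ⟨1, N.one_mem, fun w' _ => rfl, fun w => ?_⟩
        rw [hf0, zero_smul, add_zero]
        rfl
      push Not at hf0
      obtain ⟨w₀, hw₀⟩ := hf0
      obtain ⟨b, hb, hb'⟩ := F.exists_pair W W₁ f (fun w hw => by
        have : (w : V) ∈ W ⊓ F.perp W₁ := ⟨w.2, hw⟩
        rw [hopp] at this
        have e : w = 0 := Subtype.ext ((Submodule.mem_bot K).1 this)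
        rw [e, map_zero])
      have hyb : F.B y b = 0 := (hb' ⟨y, hyW⟩).symm.trans (hf ⟨y, hyW⟩ hy)
      obtain ⟨g, hg⟩ := F.exists_root (hW.1.sing hyW) (hW₁.1.sing hb) hyb
      refine ⟨g, hN y b (hW.1.sing hyW) (hW₁.1.sing hb) hyb ⟨w₀, hW.1.2 w₀ w₀.2 y hyW, by rw [← hb']; exact hw₀⟩ g hg,
        fun w' hw' => ?_, fun w => ?_⟩
      · rw [(Submodule.mem_bot K).1 hw', map_zero]
      · rw [hg, hb', hW.1.2 w w.2 y hyW]
        module
  obtain ⟨L, hL0, hL1, hL2, hL3⟩ := hvan
  refine sum_flag_zero F (Core.isIrr_isCharacter hc) hW.2 hL0 hL1 fun {_} => ?_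
  rw [← hL3]
  refine Finset.sum_congr rfl fun l _ => ?_
  have e3 : flagTerm F.iso.subtype (fun _ : GL (Fin 0) K => (1 : ℂ)) (l : F.iso) ⊥ = 1 := by
    rw [flagTerm_of _ _ (hL2 l.2), cl_eq (fun _ _ => rfl) (finBasisOfFinrankEq K (⊥ : Submodule K V) (finrank_bot K V))]
  rw [e3, map_one, mul_one]

end Cfsg.Agent.H985.OC
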