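import Cfsg.Agent.H985.OC.Defs
import Cfsg.Agent.H328.Gow.Opp
import Cfsg.Agent.H624.ExtOrthBase

/-!
# S4891, own characteristic, orthogonal groups: `Cov` and `HasSieg` for the commutator subgroup (helper985)

* `exists_refl_fix` : `O Q = E Q C`, `C` the pointwise stabiliser of `⟨e, f⟩ᗮ`, `(e, f)` a hyperbolic pair;
* `exists_map_opp` : the isometry group is transitive on the pairs of opposite totally singular `k`-subspaces;
* `cov_orth`, `hasSieg_orth`.
-/

set_option autoImplicit false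

open scoped ComplexConjugate
open Cfsg

namespace Cfsg.Agent.H985.OC

open Cfsg.Agent.H477.HC Cfsg.Agent.H53.HC Cfsg.Agent.Characters Cfsg.Agent.H576.Ext Module
  Cfsg.Agent.H624.ExtO QuadraticMap Cfsg.Agent.LieClassical.OrthCore Cfsg.Agent.LieClassical.OrthTrans
  Cfsg.Agent.LieClassical.OrthSimple

universe u v w

section Quad

variable {K : Type u} [Field K] {V : Type v} [AddCommGroup V] [Module K V] {Q : QuadraticForm K V}

/-- every isometry is in `E Q` up to an isometry which is trivial on `⟨e, f⟩ᗮ` -/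
theorem exists_refl_fix [FiniteDimensional K V] (hG : Good Q) {e f : V} (hef : Hyp Q e f) {g : V ≃ₗ[K] V}
    (hg : g ∈ O Q) : ∃ k ∈ O Q, (∀ v, polar Q e v = 0 → polar Q f v = 0 → k v = v) ∧ g * k ∈ E Q := by
  rw [O_eq_closure hG.nondeg] at hg
  induction hg using Subgroup.closure_induction with
  | mem x hx =>
    rcases hx with ⟨v, hv, rfl⟩ | ⟨u, w, hu, hw, rfl⟩
    · have hv' : Q (e + Q v • f) = Q v := by
        rw [Q_add, QuadraticMap.map_smul, hef.left, hef.right, polar_smul_right, hef.pair]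
        simp
      have hv'' : Q (e + Q v • f) ≠ 0 := by rw [hv']; exact hv
      refine ⟨refl Q _ hv'', refl_mem_O hv'', fun z hz hz' => ?_, hG.refl_mul_refl_mem hv'' hv hv'⟩
      rw [refl_apply, polar_add_left, polar_smul_left, hz, hz', smul_zero, add_zero, mul_zero, zero_smul, sub_zero]
    · exact ⟨1, (O Q).one_mem, fun _ _ _ => rfl, by rw [mul_one]; exact siegel_mem_E hu hw⟩
  | one => exact ⟨1, (O Q).one_mem, fun _ _ _ => rfl, by rw [mul_one]; exact (E Q).one_mem⟩
  | mul x y hx hy ihx ihy =>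
    obtain ⟨k, hk, hk1, hk2⟩ := ihx
    obtain ⟨l, hl, hl1, hl2⟩ := ihy
    rw [← O_eq_closure hG.nondeg] at hx
    refine ⟨l * k, (O Q).mul_mem hl hk, fun v hv hv' => ?_, ?_⟩
    · rw [LinearEquiv.mul_apply, hk1 v hv hv', hl1 v hv hv']
    · have e1 : x * y * (l * k) = (x * (y * l) * x⁻¹) * (x * k) := by group
      rw [e1]
      exact (E Q).mul_mem (conj_mem_E hx hl2) hk2
  | inv x hx ih =>
    obtain ⟨k, hk, hk1, hk2⟩ := ih
    refine ⟨k⁻¹, (O Q).inv_mem hk, fun v hv hv' => ?_, ?_⟩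
    · have h1 : (k⁻¹ : V ≃ₗ[K] V) (k v) = v := k.symm_apply_apply v
      rwa [hk1 v hv hv'] at h1
    · have e1 : x⁻¹ * k⁻¹ = k * (x * k)⁻¹ * k⁻¹ := by group
      rw [e1]
      exact conj_mem_E hk ((E Q).inv_mem hk2)

end Quad

section Opp

variable {K : Type u} [Field K] {V : Type v} [AddCommGroup V] [Module K V] (F : CForm K V)

/-- transitivity on the opposite pairs -/
theorem exists_map_opp [FiniteDimensional K V] {k : ℕ} {W W' U U' : Submodule K V} (hW : W ∈ F.Om k)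
    (hW' : W' ∈ F.Om k) (hWW : W ⊓ F.perp W' = ⊥) (hU : U ∈ F.Om k) (hU' : U' ∈ F.Om k) (hUU : U ⊓ F.perp U' = ⊥) :
    ∃ g : F.iso, U.map (F.iso.subtype g : V →ₗ[K] V) = W ∧ U'.map (F.iso.subtype g : V →ₗ[K] V) = W' := by
  obtain ⟨g, hg⟩ := F.trans_Om hU hW
  have h1 : W ⊓ F.perp (U'.map (F.iso.subtype g : V →ₗ[K] V)) = ⊥ := by
    rw [Submodule.eq_bot_iff]
    rintro w ⟨hw, hw'⟩
    rw [← hg] at hw
    obtain ⟨u, hu, rfl⟩ := hw
    have h2 : u ∈ U ⊓ F.perp U' := ⟨hu, fun u' hu' => by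
      have := hw' (F.iso.subtype g u') ⟨u', hu', rfl⟩
      exact (F.iso_B g u u').symm.trans this⟩
    rw [hUU] at h2
    rw [(Submodule.mem_bot K).1 h2, map_zero]
  obtain ⟨h, hh, hh'⟩ := H328.Gow.exists_opp_move F hW (F.Om_map g U' hU') hW' h1 hWW
  refine ⟨h * g, ?_, ?_⟩
  · rw [map_mul_apply, hg]
    exact map_eq_of_le F.iso.subtype fun w hw => by
      change (h : V ≃ₗ[K] V) w ∈ W
      rw [hh w hw]; exact hw
  · rw [map_mul_apply, hh']

/-- a hyperbolic pair orthogonal to a pair of opposite subspaces -/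
theorem exists_hyp_opp [FiniteDimensional K V] {k : ℕ} {M : Submodule K V} (hM : M ∈ F.Om (k + 1))
    {W W' : Submodule K V} (hW : W ∈ F.Om k) (hW' : W' ∈ F.Om k) (hWW : W ⊓ F.perp W' = ⊥) :
    ∃ e f : V, F.Sing e ∧ F.Sing f ∧ F.B e f = 1 ∧ (∀ w ∈ W, F.B w e = 0 ∧ F.B w f = 0) ∧
      ∀ w ∈ W', F.B w e = 0 ∧ F.B w f = 0 := by
  classical
  obtain ⟨M', hM', hMM⟩ := F.exists_opp hM
  obtain ⟨b, b', hb⟩ := CForm.exists_dual_basis hM.2 hM'.2 hMM
  let U : Submodule K V := Submodule.span K (Set.range fun i : Fin k => (b i.castSucc : V))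
  let U' : Submodule K V := Submodule.span K (Set.range fun i : Fin k => (b' i.castSucc : V))
  have hUM : U ≤ M := by
    rw [Submodule.span_le]
    rintro _ ⟨i, rfl⟩
    exact (b _).2
  have hUM' : U' ≤ M' := by
    rw [Submodule.span_le]
    rintro _ ⟨i, rfl⟩
    exact (b' _).2
  have hfin : ∀ {M : Submodule K V} (b : Basis (Fin (k + 1)) K M),
      finrank K (Submodule.span K (Set.range fun i : Fin k => (b i.castSucc : V))) = k := by
    intro M b
    have hli : LinearIndependent K (fun i : Fin k => (b i.castSucc : V)) := by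
      have h1 := b.linearIndependent.comp _ (Fin.castSucc_injective k)
      exact h1.map' M.subtype (Submodule.ker_subtype M)
    have := finrank_span_eq_card hli
    rwa [Fintype.card_fin] at this
  have hU : U ∈ F.Om k := ⟨hM.1.mono hUM, hfin b⟩
  have hU' : U' ∈ F.Om k := ⟨hM'.1.mono hUM', hfin b'⟩
  have hUe : ∀ u ∈ U, F.B u (b' (Fin.last k)) = 0 := by
    intro u hu
    induction hu using Submodule.span_induction with
    | mem x hx =>
      obtain ⟨i, rfl⟩ := hx
      change F.B (b i.castSucc : V) _ = 0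
      rw [hb, if_neg (Fin.castSucc_lt_last i).ne]
    | zero => exact F.B_zero_left _
    | add x y _ _ h1 h2 => rw [F.B_add_left, h1, h2, add_zero]
    | smul a x _ h1 => rw [F.B_smul_left, h1, mul_zero]
  have hUf : ∀ u ∈ U', F.B u (b (Fin.last k)) = 0 := by
    intro u hu
    induction hu using Submodule.span_induction with
    | mem x hx =>
      obtain ⟨i, rfl⟩ := hx
      change F.B (b' i.castSucc : V) _ = 0
      exact F.B_eq_zero (by rw [hb, if_neg (Fin.castSucc_lt_last i).ne'])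
    | zero => exact F.B_zero_left _
    | add x y _ _ h1 h2 => rw [F.B_add_left, h1, h2, add_zero]
    | smul a x _ h1 => rw [F.B_smul_left, h1, mul_zero]
  have hUU : U ⊓ F.perp U' = ⊥ := by
    rw [Submodule.eq_bot_iff]
    rintro u ⟨hu, hu'⟩
    have h1 : u ∈ M ⊓ F.perp M' := by
      refine ⟨hUM hu, fun m hm => ?_⟩
      -- expand `m` in the basis `b'`
      have h2 : m = ∑ i, b'.repr ⟨m, hm⟩ i • (b' i : V) := by
        have h3 := congrArg Subtype.val (b'.sum_repr ⟨m, hm⟩)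
        rw [Submodule.coe_sum] at h3
        exact h3.symm
      rw [h2, F.B_sum_right]
      refine Finset.sum_eq_zero fun i _ => ?_
      rcases Fin.eq_castSucc_or_eq_last i with ⟨j, rfl⟩ | rfl
      · rw [hu' _ (Submodule.subset_span ⟨j, rfl⟩), mul_zero]
      · rw [hUe u hu, mul_zero]
    rw [hMM] at h1
    exact (Submodule.mem_bot K).1 h1
  obtain ⟨g, hg, hg'⟩ := exists_map_opp F hW hW' hWW hU hU' hUU
  refine ⟨(g : V ≃ₗ[K] V) (b (Fin.last k)), (g : V ≃ₗ[K] V) (b' (Fin.last k)), ?_, ?_, ?_, ?_, ?_⟩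
  · exact ⟨by rw [F.iso_Q]; exact hM.1.1 _ (b _).2, by rw [F.iso_B]; exact hM.1.2 _ (b _).2 _ (b _).2⟩
  · exact ⟨by rw [F.iso_Q]; exact hM'.1.1 _ (b' _).2, by rw [F.iso_B]; exact hM'.1.2 _ (b' _).2 _ (b' _).2⟩
  · rw [F.iso_B, hb, if_pos rfl]
  · intro w hw
    rw [← hg] at hw
    obtain ⟨u, hu, rfl⟩ := hw
    exact ⟨(F.iso_B g u _).trans (hM.1.2 _ (hUM hu) _ (b _).2), (F.iso_B g u _).trans (hUe u hu)⟩
  · intro w hw
    rw [← hg'] at hw
    obtain ⟨u, hu, rfl⟩ := hw
    exact ⟨(F.iso_B g u _).trans (hUf u hu), (F.iso_B g u _).trans (hM'.1.2 _ (hUM' hu) _ (b' _).2)⟩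

end Opp

section Orth

variable {K : Type u} [Field K] {V : Type v} [AddCommGroup V] [Module K V] {F : CForm K V}

/-- elements of `E Q` come from the commutator subgroup -/
theorem exists_comm (h : IsQuad F) (hG : Good (quadOf F h)) {g : V ≃ₗ[K] V} (hg : g ∈ E (quadOf F h)) :
    ∃ n : F.iso, n ∈ commutator F.iso ∧ (n : V ≃ₗ[K] V) = g := by
  rw [← hG.commutator_eq_E, ← map_comm h] at hg
  obtain ⟨n, hn, rfl⟩ := hg
  exact ⟨n, hn, rfl⟩

/-- **`Cov`** -/
theorem cov_orth [FiniteDimensional K V] (h : IsQuad F) (hG : Good (quadOf F h)) {k : ℕ} {M : Submodule K V}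
    (hM : M ∈ F.Om (k + 1)) : Cov F (commutator F.iso) k := by
  intro W hW W' hW' hWW g
  obtain ⟨e, f, he, hf, hef, h1, h2⟩ := exists_hyp_opp F hM hW hW' hWW
  have hyp : Hyp (quadOf F h) e f := ⟨he.1, hf.1, by rw [polar_quadOf]; exact hef⟩
  have hgO : (g : V ≃ₗ[K] V) ∈ O (quadOf F h) := by
    rw [← iso_eq h]
    exact g.2
  obtain ⟨k, hk, hk1, hk2⟩ := exists_refl_fix hG hyp hgO
  have hk' : k ∈ F.iso := by
    rw [iso_eq h]
    exact hk
  have hB : ∀ u v, F.B u v = F.B v u := by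
    intro u v
    rw [h.B, h.B, add_comm]
    ring
  refine ⟨⟨k, hk'⟩, fun w hw => ?_, fun w hw => ?_, ?_⟩
  · refine hk1 w ?_ ?_
    · rw [polar_quadOf, hB]; exact (h1 w hw).1
    · rw [polar_quadOf, hB]; exact (h1 w hw).2
  · refine hk1 w ?_ ?_
    · rw [polar_quadOf, hB]; exact (h2 w hw).1
    · rw [polar_quadOf, hB]; exact (h2 w hw).2
  · obtain ⟨n, hn, hn'⟩ := exists_comm h hG hk2
    have : g * ⟨k, hk'⟩ = n := Subtype.ext hn'.symm
    rw [this]
    exact hn

/-- **`HasSieg`** -/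
theorem hasSieg_orth (h : IsQuad F) (hG : Good (quadOf F h)) : HasSieg F (commutator F.iso) := by
  intro x b hx hxb
  have hB : ∀ u v, F.B u v = F.B v u := by
    intro u v
    rw [h.B, h.B, add_comm]
    ring
  have hx0 : quadOf F h x = 0 := hx.1
  have hw : polar (quadOf F h) x (-b) = 0 := by
    rw [polar_quadOf, F.B_neg_right, hxb, neg_zero]
  have hε : F.ε = 1 ∨ ∀ u v, F.B u v = 0 := by
    by_contra hc
    push Not at hc
    obtain ⟨h1, u, v, huv⟩ := hc
    apply h1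
    have h2 := F.B_symm u v
    rw [h.σ, hB v u] at h2
    have h3 : (F.ε - 1) * F.B u v = 0 := by
      rw [sub_mul, one_mul, ← h2, sub_self]
    exact sub_eq_zero.1 ((mul_eq_zero.1 h3).resolve_right huv)
  obtain ⟨n, hn, hn'⟩ := exists_comm h hG (siegel_mem_E hx0 hw)
  refine ⟨n, hn, -F.Q b, fun v => ?_⟩
  rw [hn', siegel_apply, polar_quadOf, polar_quadOf, F.B_neg_left, hB x v, hB b v]
  have h4 : quadOf F h (-b) = F.Q b := by
    rw [QuadraticMap.map_neg]
    rfl
  rw [h4]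
  rcases hε with h5 | h5
  · rw [h5, inv_one, one_mul]
    module
  · rw [h5 v x, h5 v b]
    module

end Orth

end Cfsg.Agent.H985.OC
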