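import Cfsg.Agent.H53.HC.GLW
import Cfsg.Agent.H710.Cuspidal

/-!
# S4891, own characteristic: cuspidal characters of `GL_2(K)` vanish on the split regular elements (helper985)

* `tor_of_cusp` : `c A = 0`, `A = diag (a, b)`, `a ≠ b`.
-/

set_option autoImplicit false

open scoped ComplexConjugate
open Cfsg

namespace Cfsg.Agent.H985.OC

open Cfsg.Agent.H53.HC Cfsg.Agent.Characters Module

universe u

theorem tor_of_cusp {K : Type u} [Field K] [Finite K] {c : GL (Fin 2) K → ℂ} (hc : IsIrrCharacter _ c)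
    (hcusp : IsCusp c) (A : GL (Fin 2) K) (h01 : (A : Matrix (Fin 2) (Fin 2) K) 0 1 = 0)
    (h10 : (A : Matrix (Fin 2) (Fin 2) K) 1 0 = 0)
    (hne : (A : Matrix (Fin 2) (Fin 2) K) 0 0 ≠ (A : Matrix (Fin 2) (Fin 2) K) 1 1) : c A = 0 := by
  classical
  have hcf : IsClassFunction _ c := Core.isIrr_isClassFunction hc
  have : Finite ((Fin 2 → K) ≃ₗ[K] (Fin 2 → K)) :=
    Finite.of_injective (fun e => (e : (Fin 2 → K) → (Fin 2 → K))) DFunLike.coe_injective
  let E := glE (Pi.basisFun K (Fin 2))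
  let D : Submodule K (Fin 2 → K) := Submodule.span K {Pi.single 0 1}
  have hmemD : ∀ v : Fin 2 → K, v ∈ D ↔ v 1 = 0 := by
    intro v
    rw [Submodule.mem_span_singleton]
    constructor
    · rintro ⟨a, rfl⟩
      simp
    · intro h
      refine ⟨v 0, ?_⟩
      ext i
      fin_cases i
      · simp
      · simp [h]
  let _ : Fintype (radU D) := Fintype.ofFinite _
  let x : (Fin 2 → K) ≃ₗ[K] (Fin 2 → K) := E.symm A
  have hx : ∀ v : Fin 2 → K, x v = (A : Matrix (Fin 2) (Fin 2) K).mulVec v := by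
    intro v
    have h1 : E x = A := E.apply_symm_apply A
    have h2 := congrArg (fun g : GL (Fin 2) K => (g : Matrix (Fin 2) (Fin 2) K)) h1
    rw [← h2, coe_glE]
    have h3 := LinearMap.toMatrix_mulVec_repr (Pi.basisFun K (Fin 2)) (Pi.basisFun K (Fin 2))
      (x : (Fin 2 → K) →ₗ[K] (Fin 2 → K)) v
    exact h3.symm
  have hx0 : ∀ v : Fin 2 → K, x v 0 = (A : Matrix (Fin 2) (Fin 2) K) 0 0 * v 0 := by
    intro v
    rw [hx]
    simp [Matrix.mulVec, dotProduct, Fin.sum_univ_two, h01]
  have hx1 : ∀ v : Fin 2 → K, x v 1 = (A : Matrix (Fin 2) (Fin 2) K) 1 1 * v 1 := by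
    intro v
    rw [hx]
    simp [Matrix.mulVec, dotProduct, Fin.sum_univ_two, h10]
  have hdet : (A : Matrix (Fin 2) (Fin 2) K) 0 0 * (A : Matrix (Fin 2) (Fin 2) K) 1 1 ≠ 0 := by
    have h1 : (A : Matrix (Fin 2) (Fin 2) K).det ≠ 0 := by
      have := A.isUnit.map Matrix.detMonoidHom
      exact (Matrix.isUnit_iff_isUnit_det _).1 A.isUnit |>.ne_zero
    rw [Matrix.det_fin_two, h01, zero_mul, sub_zero] at h1
    exact h1
  have ha : (A : Matrix (Fin 2) (Fin 2) K) 0 0 ≠ 0 := left_ne_zero_of_mul hdet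
  have hb : (A : Matrix (Fin 2) (Fin 2) K) 1 1 ≠ 0 := right_ne_zero_of_mul hdet
  have hxD : ∀ v : Fin 2 → K, v ∈ D ↔ x v ∈ D := by
    intro v
    rw [hmemD, hmemD, hx1]
    simp [hb]
  have hU : ∑ u : radU D, c (E (u : (Fin 2 → K) ≃ₗ[K] (Fin 2 → K))) = 0 := by
    have h1 := hcusp D (by
      intro h
      have h2 : (Pi.single 0 1 : Fin 2 → K) ∈ D := (hmemD _).2 (by simp)
      rw [h, Submodule.mem_bot] at h2
      have h3 := congrFun h2 0
      simp at h3) (by
      intro h
      have h2 : (Pi.single 1 1 : Fin 2 → K) ∈ D := by rw [h]; trivial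
      rw [hmemD] at h2
      simp at h2)
    rw [← h1]
    exact Finset.sum_congr rfl fun u _ => (cl_eq hcf _ _).symm
  obtain ⟨n, ρ, hρ, rfl⟩ := hc
  have h1 := H710.Cuspidal.zero_of_regular (ρ.comp E.toMonoidHom) (radU D) hU (x := x) (fun u => ?_) fun u hu hxu => ?_
  · have h2 : E x = A := E.apply_symm_apply A
    rw [← h2]
    exact h1
  · constructor
    · rintro ⟨h1, h2⟩
      refine ⟨fun w => ?_, fun d hd => ?_⟩
      · have h3 : (x * u * x⁻¹) w - w = x (u (x⁻¹ w) - x⁻¹ w) := by
          rw [map_sub, LinearEquiv.mul_apply, LinearEquiv.mul_apply]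
          congr 1
          exact (x.apply_symm_apply w).symm
        rw [h3, ← hxD]
        exact h1 _
      · have h3 : x⁻¹ d ∈ D := by
          rw [hxD]
          have : x (x⁻¹ d) = d := x.apply_symm_apply d
          rwa [this]
        rw [LinearEquiv.mul_apply, LinearEquiv.mul_apply, h2 _ h3]
        exact x.apply_symm_apply d
    · rintro ⟨h1, h2⟩
      have hk : ∀ w, (x * u * x⁻¹) (x w) = x (u w) := by
        intro w
        rw [LinearEquiv.mul_apply, LinearEquiv.mul_apply]
        have : x⁻¹ (x w) = w := x.symm_apply_apply w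
        rw [this]
      refine ⟨fun w => ?_, fun d hd => ?_⟩
      · have h3 := h1 (x w)
        rw [hk, ← map_sub, ← hxD] at h3
        exact h3
      · have h3 := h2 (x d) ((hxD d).1 hd)
        rw [hk] at h3
        exact x.injective h3
  · have h3 : u (Pi.single 0 1) = Pi.single 0 1 := hu.2 _ ((hmemD _).2 (by simp))
    have h4 : u (Pi.single 1 1) - Pi.single 1 1 ∈ D := hu.1 _
    have h5 : (u (Pi.single 1 1)) 1 = 1 := by
      have := (hmemD _).1 h4
      simp at this
      linear_combination this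
    have h6 := congrFun (congrArg (fun f : (Fin 2 → K) ≃ₗ[K] (Fin 2 → K) => f (Pi.single 1 1)) hxu) 0
    simp only [LinearEquiv.mul_apply] at h6
    rw [hx0] at h6
    have h7 : x (Pi.single 1 1) = (A : Matrix (Fin 2) (Fin 2) K) 1 1 • Pi.single 1 1 := by
      ext i
      fin_cases i
      · change x (Pi.single 1 1) 0 = _
        rw [hx0]
        simp
      · change x (Pi.single 1 1) 1 = _
        rw [hx1]
        simp
    rw [h7, map_smul, Pi.smul_apply, smul_eq_mul] at h6
    have h8 : (u (Pi.single 1 1)) 0 = 0 := by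
      have h9 : ((A : Matrix (Fin 2) (Fin 2) K) 0 0 - (A : Matrix (Fin 2) (Fin 2) K) 1 1) * (u (Pi.single 1 1)) 0 = 0 := by
        linear_combination h6
      exact (mul_eq_zero.1 h9).resolve_left (sub_ne_zero.2 hne)
    have h10' : u (Pi.single 1 1) = Pi.single 1 1 := by
      ext i
      fin_cases i
      · simpa using h8
      · simpa using h5
    apply LinearEquiv.toLinearMap_injective
    apply (Pi.basisFun K (Fin 2)).ext
    intro i
    fin_cases i
    · simpa [Pi.basisFun_apply] using h3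
    · simpa [Pi.basisFun_apply] using h10'

end Cfsg.Agent.H985.OC
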