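import Cfsg.Agent.H985.OC.Wt
import Cfsg.Agent.H985.OC.Tor
import Cfsg.Agent.H194.OC.SpInner
import Cfsg.Agent.H464.ExtQSp

/-!
# S4891, own characteristic: the row `PSp_{2m}(q)`, `m ≥ 2` (helper985)

* `ocRow_psp_of` : `OCRow p (PSp m K)`, `m ≥ 2`, `p` odd, from a self-dual cuspidal datum of `GL_2(K)`
  (trivial on the scalars, `p`-rational, of degree `|K| - 1`).
-/

set_option autoImplicit false

open scoped ComplexConjugate
open Cfsg

namespace Cfsg.Agent.H985.OC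

open Cfsg.Agent.H477.HC Cfsg.Agent.H53.HC Cfsg.Agent.Characters Cfsg.Agent.H576.Ext Module
open Cfsg.Agent.H993.OC (OCRow Wt)
open Cfsg.Agent.H464.ExtR3 (autG mem_autG semiQ_sp)

universe u v w

variable {p : ℕ} [Fact p.Prime]

/-- **`PSp_{2m}(q)`, `m ≥ 2`** -/
theorem ocRow_psp_of (hp2 : p ≠ 2) (K : Type u) [Field K] [Finite K] [CharP K p] {m : ℕ} (hm : 2 ≤ m)
    {c : GL (Fin 2) K → ℂ} (hc : CDat p K 2 c) (hsd : c ∘ invT 2 = c) (h1 : c 1 = (Nat.card K : ℂ) - 1) :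
    OCRow p (PSp m K) := by
  classical
  have h2 : (2 : K) ≠ 0 := two_ne (p := p) hp2
  intro A hA
  obtain ⟨n, rfl⟩ : ∃ n, m = 2 + n := ⟨m - 2, by omega⟩
  obtain ⟨D, hD⟩ := semiQ_sp (K := K) hm (Or.inr h2)
  obtain ⟨⟨W₀, hW₀⟩, -⟩ := CForm.spF_frame (K := K) (p := p) 2 n
  have hfo := finite_Om (CForm.spF K (2 + n)) 2
  let _ := Fintype.ofFinite ((CForm.spF K (2 + n)).Om 2)
  have hsy : H194.OC.Symp (CForm.spF K (2 + n)) := ⟨fun a => rfl, fun _ => rfl⟩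
  obtain ⟨E, hE, hg⟩ := H194.OC.exists_good hsy hW₀
  exact wt_of_sum hp2 D (hasRoots_top _) (cov_top _ 2) rfl hW₀ hc hsd h1
    (M := H53.HC.stabW (CForm.spF K (2 + n)).iso.subtype E) le_top (fun {_} =>
    H194.OC.sum_stab hsy hW₀ hE hg hc.irr hc.cusp hc.scal h1 (tor_of_cusp hc.irr hc.cusp)) hA fun α _ => hD α

end Cfsg.Agent.H985.OC
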