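import Cfsg.Agent.H985.OC.RowSp
import Cfsg.Agent.H949.OC.Inst

/-!
# S4891, own characteristic: the row `PSp_{2m}(q)`, `m ≥ 2`, unconditional (helper985)
-/

set_option autoImplicit false

open scoped ComplexConjugate
open Cfsg

namespace Cfsg.Agent.H985.OC

open Cfsg.Agent.H477.HC Cfsg.Agent.H53.HC Cfsg.Agent.Characters Cfsg.Agent.H576.Ext Module
open Cfsg.Agent.H993.OC (OCRow Wt)

universe u

variable {p : ℕ} [Fact p.Prime]

/-- the self-dual datum of `GL_2(K)` -/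
theorem exists_self (hp2 : p ≠ 2) (K : Type u) [Field K] [Finite K] [CharP K p] :
    ∃ c : GL (Fin 2) K → ℂ, CDat p K 2 c ∧ c ∘ invT 2 = c ∧ c 1 = (Nat.card K : ℂ) - 1 := by
  obtain ⟨f₀, l, hf, hK⟩ := H949.OC.exists_decomp p K
  obtain ⟨c, hc, hdual, hscal, -⟩ := H949.OC.exists_plus hp2 hf hK
  refine ⟨c, ⟨hc.irr, hc.cusp, fun z => ?_, hc.rat, hc.hfix, hc.toDat.exists_deg⟩, ?_, ?_⟩
  · have h := hscal z 1
    rwa [mul_one] at h
  · have h : dualc (RingHom.id K) c = c ∘ invT 2 := by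
      unfold dualc
      rw [H328.Gow.map_id_comp 2]
    rw [← h, hdual]
  · rw [hc.deg]
    have h1 : Finset.Ico 1 2 = {1} := rfl
    rw [h1, Finset.prod_singleton, pow_one, Nat.cast_sub (Nat.card_pos (α := K)), Nat.cast_one]

/-- **`PSp_{2m}(q)`, `m ≥ 2`, own characteristic** -/
theorem ocRow_psp (hp2 : p ≠ 2) (K : Type u) [Field K] [Finite K] [CharP K p] {m : ℕ} (hm : 2 ≤ m) :
    OCRow p (PSp m K) := by
  obtain ⟨c, hc, hsd, h1⟩ := exists_self hp2 K
  exact ocRow_psp_of hp2 K hm hc hsd h1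

end Cfsg.Agent.H985.OC
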