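import Cfsg.Agent.H985.OC.Desc
import Cfsg.Agent.H985.OC.Norm
import Cfsg.Agent.H985.OC.Orth
import Cfsg.Agent.H898.OC.Omk

/-!
# S4891, own characteristic, classical groups, norm two: the generic row (helper985)

* `wt_of_sum` : `∃ θ, Wt p S A θ` from `∑_M F.hc c 1 = |M|`, `M ≤ N`;
* `mem_of_index` : elements of order a power of `p ≥ 5` lie in subgroups of index `3`.
-/

set_option autoImplicit false

open scoped ComplexConjugate
open Cfsg

namespace Cfsg.Agent.H985.OC

open Cfsg.Agent.H477.HC Cfsg.Agent.H53.HC Cfsg.Agent.Characters Cfsg.Agent.H576.Ext Module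
open Cfsg.Agent.H993.OC (OCRow Wt)
open Cfsg.Agent.H464.ExtR3 (autG)

universe u v w

variable {K : Type u} [Field K] {V : Type v} [AddCommGroup V] [Module K V] {F : CForm K V}

theorem two_ne {p : ℕ} [hp : Fact p.Prime] [CharP K p] (hp2 : p ≠ 2) : (2 : K) ≠ 0 := by
  intro h
  have h3 : ((2 : ℕ) : K) = 0 := by exact_mod_cast h
  rw [CharP.cast_eq_zero_iff K p] at h3
  exact hp2 ((Nat.prime_dvd_prime_iff_eq hp.out Nat.prime_two).1 h3)

theorem three_le_card [Finite K] (h2 : (2 : K) ≠ 0) : 3 ≤ Nat.card K := by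
  have := Fintype.ofFinite K
  rw [Nat.card_eq_fintype_card]
  have h1 : 1 < Fintype.card K := Fintype.one_lt_card
  by_contra h
  have h3 : Fintype.card K = 2 := by omega
  have h4 : ((Fintype.card K : ℕ) : K) = 0 := Nat.cast_card_eq_zero K
  rw [h3] at h4
  exact h2 (by exact_mod_cast h4)

theorem exists_t (h2 : (2 : K) ≠ 0) : ∃ t : K, t ≠ 0 ∧ t ≠ 1 := by
  refine ⟨-1, neg_ne_zero.2 one_ne_zero, fun h => h2 ?_⟩
  have : (1 : K) + 1 = 0 := by
    nth_rewrite 1 [← h]
    ring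
  rw [← this]
  norm_num

/-- **the generic row** -/
theorem wt_of_sum {p : ℕ} [Fact p.Prime] (hp2 : p ≠ 2) [CharP K p] [Finite K] [FiniteDimensional K V] [Finite V]
    {N : Subgroup F.iso} {S : Type w} [Group S] [Finite S] (D : SemiQ F N S) (hN : HasRoots F N) (hcov : Cov F N 2)
    (hσ : F.σ = RingHom.id K) {W₀ : Submodule K V} (hW₀ : W₀ ∈ F.Om 2) [Fintype (F.Om 2)] {c : GL (Fin 2) K → ℂ}
    (hc : CDat p K 2 c) (hsd : c ∘ invT 2 = c) (hone : c 1 = (Nat.card K : ℂ) - 1) {M : Subgroup F.iso} (hMN : M ≤ N)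
    (hsum : ∀ [Fintype M], ∑ g : M, F.hc c (fun _ _ => 1) (g : F.iso) = (Nat.card M : ℂ))
    {A : Subgroup (MulAut S)} (hA : IsPGroup p A) (hAut : A ≤ autG D) : ∃ θ, Wt p S A θ := by
  classical
  have h2 : (2 : K) ≠ 0 := two_ne (p := p) hp2
  have hc1 : c ≠ 1 := by
    intro h
    have h3 := hone
    rw [h, Pi.one_apply] at h3
    have h4 : ((Nat.card K : ℕ) : ℂ) = (2 : ℕ) := by
      push_cast
      linear_combination -h3
    have h5 : Nat.card K = 2 := by exact_mod_cast h4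
    have h6 := three_le_card h2
    omega
  have hdual : c ∘ F.iota 2 = c := by
    have h3 : F.iota 2 = invT 2 := by
      unfold CForm.iota
      rw [hσ]
      exact H328.Gow.map_id_comp 2
    rw [h3, hsd]
  refine hc_two D hc (H898.OC.omk F hp2 2 ⟨W₀, hW₀⟩) (fun {_} => ?_) (fun {_} => ?_) hMN hsum hA hAut
  · exact inner_N_two F hN le_rfl hcov hc.irr hc.cusp hc1 hdual hW₀
  · exact inner_N_one F hN le_rfl hc.irr hc.cusp

/-- elements of order a power of `p ≥ 5` lie in subgroups of index `3` -/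
theorem mem_of_index {G : Type*} [Group G] {H : Subgroup G} (hH : H.index = 3) {p : ℕ} (hp : p.Prime) (h5 : 5 ≤ p)
    {a : G} {j : ℕ} (ha : a ^ p ^ j = 1) : a ∈ H := by
  have h1 : a ^ 6 ∈ H := Subgroup.pow_mem_of_index_ne_zero_of_dvd (by rw [hH]; decide) a fun m hm hm' => by
    rw [hH] at hm'
    interval_cases m <;> decide
  have h2 : a ^ p ^ j ∈ H := by
    rw [ha]
    exact one_mem _
  have h6 : ¬ p ∣ 6 := by
    intro h
    have h7 := Nat.le_of_dvd (by norm_num) h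
    interval_cases p
    · revert h; decide
    · revert hp; decide
  have hco : IsCoprime ((6 : ℕ) : ℤ) ((p ^ j : ℕ) : ℤ) := by
    rw [Nat.isCoprime_iff_coprime]
    exact Nat.Coprime.pow_right j ((Nat.Prime.coprime_iff_not_dvd hp).2 h6).symm
  obtain ⟨x, y, hxy⟩ := hco
  have h8 : a = (a ^ 6) ^ x * (a ^ p ^ j) ^ y := by
    rw [← zpow_natCast, ← zpow_natCast, ← zpow_mul, ← zpow_mul, ← zpow_add, mul_comm ((6 : ℕ) : ℤ), mul_comm _ y, hxy,
      zpow_one]
  rw [h8]
  exact mul_mem (zpow_mem h1 x) (zpow_mem h2 y)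

end Cfsg.Agent.H985.OC
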